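import Cfsg.Agent.H22.Linear
/-! Generators and relations in `PSL(3,3)`. -/
namespace H27
open Matrix Subgroup
noncomputable section
abbrev L3S := SpecialLinearGroup (Fin 3) (ZMod 3)
def l3z : L3S := ⟨!![1, 0, 1; 0, 1, 0; 0, 0, 1], by rw [det_fin_three]; decide⟩
def l3p : L3S := ⟨!![1, 0, 0; 0, 1, 1; 0, 0, 1], by rw [det_fin_three]; decide⟩
def l3r : L3S := ⟨!![1, 1, 0; 0, 1, 0; 0, 0, 1], by rw [det_fin_three]; decide⟩
def l3t : L3S := ⟨!![2, 0, 0; 0, 2, 0; 0, 0, 1], by rw [det_fin_three]; decide⟩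
def l3s : L3S := ⟨!![1, 0, 0; 0, 2, 0; 0, 0, 2], by rw [det_fin_three]; decide⟩
def l3a : L3S := ⟨!![0, 1, 0; 2, 0, 0; 0, 0, 1], by rw [det_fin_three]; decide⟩
def l3b : L3S := ⟨!![1, 0, 0; 0, 0, 1; 0, 2, 0], by rw [det_fin_three]; decide⟩
theorem l3_zi : l3z⁻¹ = l3z * l3z := inv_eq_of_mul_eq_one_right (Subtype.ext (by decide +kernel))
theorem l3_pi : l3p⁻¹ = l3p * l3p := inv_eq_of_mul_eq_one_right (Subtype.ext (by decide +kernel))
theorem l3_ri : l3r⁻¹ = l3r * l3r := inv_eq_of_mul_eq_one_right (Subtype.ext (by decide +kernel))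
theorem l3_ai : l3a⁻¹ = l3a * l3a * l3a := inv_eq_of_mul_eq_one_right (Subtype.ext (by decide +kernel))
theorem l3_bi : l3b⁻¹ = l3b * l3b * l3b := inv_eq_of_mul_eq_one_right (Subtype.ext (by decide +kernel))
theorem l3_top (H : Subgroup L3S) (z : l3z ∈ H) (p : l3p ∈ H) (r : l3r ∈ H) (a : l3a ∈ H) (b : l3b ∈ H) : H = ⊤ := by
  have cj : ∀ {g x}, g ∈ H → x ∈ H → g * g * g * x * g ∈ H := fun g x => mul_mem (mul_mem (mul_mem (mul_mem g g) g) x) g
  have k : ∀ {i j : Fin 3} (h : i ≠ j) {x}, x ∈ H → (transvection i j 1 = x.1 ∨ transvection i j 1 = (x * x).1) →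
      ∀ c, SpecialLinearGroup.transvection h c ∈ H := fun {i j} h x hx e c => by
    have h1 : SpecialLinearGroup.transvection h 1 ∈ H := e.elim
      (fun e => by rwa [show SpecialLinearGroup.transvection h 1 = x from Subtype.ext e])
      fun e => by rw [show SpecialLinearGroup.transvection h 1 = x * x from Subtype.ext e]; exact mul_mem hx hx
    have e : ∀ c d : ZMod 3, SpecialLinearGroup.transvection h c * SpecialLinearGroup.transvection h d =
      SpecialLinearGroup.transvection h (c + d) := fun c d => Subtype.ext (transvection_mul_transvection_same i j h c d)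
    have h2 := mul_mem h1 h1
    have h3 := mul_mem h2 h1
    rw [e] at h2; rw [e, e] at h3
    rcases (by decide : ∀ c : ZMod 3, c = 1 ∨ c = 1 + 1 ∨ c = 1 + 1 + 1) c with rfl | rfl | rfl <;> assumption
  refine H22.eq_top_of_transvection_mem H fun i j h => ?_
  fin_cases i <;> fin_cases j
  · exact absurd rfl h
  · exact k h r (by decide +kernel)
  · exact k h z (by decide +kernel)
  · exact k h (cj a r) (by decide +kernel)
  · exact absurd rfl h
  · exact k h p (by decide +kernel)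
  · exact k h (cj a (cj b p)) (by decide +kernel)
  · exact k h (cj b p) (by decide +kernel)
  · exact absurd rfl h

theorem l33 : ∃ z p r t s a b : Matrix.ProjectiveSpecialLinearGroup (Fin 3) (ZMod 3),
    (z*z*z=1 ∧ p*p*p=1 ∧ r*r*r=1 ∧ t*t=1 ∧ s*s=1 ∧ z*p*z⁻¹*p⁻¹=1 ∧ z*r*z⁻¹*r⁻¹=1 ∧ r*p*r⁻¹*p⁻¹*z⁻¹=1 ∧ t*s*t*s=1 ∧
      t*z*t*z=1 ∧ t*p*t*p=1 ∧ t*r*t*r⁻¹=1 ∧ s*z*s*z=1 ∧ s*r*s*r=1 ∧ s*p*s*p⁻¹=1) ∧
    (a*a*t=1 ∧ s*a*s*a=1 ∧ a*z*a⁻¹*p=1 ∧ a*p*a⁻¹*z⁻¹=1 ∧ a*r*a*r*a*r=1) ∧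
    (b*b*s=1 ∧ t*b*t*b=1 ∧ b*z*b⁻¹*r⁻¹=1 ∧ b*r*b⁻¹*z=1 ∧ b*p*b*p*b*p=1) ∧
    ((a*(b*a*b*a⁻¹*b⁻¹)*r)^3*t=1 ∧ (a*r*(b*a*b*a⁻¹*b⁻¹))^3*t=1 ∧ (a*r⁻¹*(b*a*b*a⁻¹*b⁻¹)*r⁻¹)^3=1) ∧
    Subgroup.closure {z,p,r,t,s,a,b} = ⊤ := by
  let π := QuotientGroup.mk' (center L3S)
  have key : ∀ {x : L3S}, x.1 = 1 → π x = 1 := fun {x} h => by rw [show x = 1 from Subtype.ext h, map_one]
  refine ⟨π l3z, π l3p, π l3r, π l3t, π l3s, π l3a, π l3b, ?_, ?_, ?_, ?_, ?_⟩
  rotate_left 4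
  · have := l3_top ((Subgroup.closure {π l3z, π l3p, π l3r, π l3t, π l3s, π l3a, π l3b}).comap π)
      (mem_comap.2 (Subgroup.subset_closure (by simp))) (mem_comap.2 (Subgroup.subset_closure (by simp)))
      (mem_comap.2 (Subgroup.subset_closure (by simp))) (mem_comap.2 (Subgroup.subset_closure (by simp)))
      (mem_comap.2 (Subgroup.subset_closure (by simp)))
    rw [eq_top_iff]
    intro x _
    obtain ⟨y, rfl⟩ := QuotientGroup.mk'_surjective _ x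
    exact (this ▸ mem_top y : y ∈ comap π _)
  all_goals
    simp only [← map_inv, l3_zi, l3_pi, l3_ri, l3_ai, l3_bi, pow_succ, pow_zero, one_mul, ← map_mul]
    repeat' apply And.intro
    all_goals exact key (by decide +kernel)

theorem l33_card : Nat.card (Matrix.ProjectiveSpecialLinearGroup (Fin 3) (ZMod 3)) = 5616 := by
  have a := H22.card_SL (F := ZMod 3) 3 (by norm_num)
  rw [ZMod.card] at a
  simp only [Fin.prod_univ_three] at a
  change 2 * Nat.card L3S = 11232 at a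
  have b := card_eq_card_quotient_mul_card_subgroup (center L3S)
  rw [H22.card_center_SL 3 (by norm_num), ZMod.card] at b
  change _ = Nat.card (Matrix.ProjectiveSpecialLinearGroup (Fin 3) (ZMod 3)) * 1 at b
  omega
theorem l33_simple : IsSimpleGroup (Matrix.ProjectiveSpecialLinearGroup (Fin 3) (ZMod 3)) :=
  H22.PSL_isSimpleGroup_of_three_le (F := ZMod 3) (ι := Fin 3) (by simp)
end
end H27
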