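/-
Four-groups of double transpositions in the alternating group of degree 8.
-/
import Cfsg.Agent.H8.A8h

set_option autoImplicit false
open Subgroup Equiv H8A

namespace H27.Pm

theorem ct (a : A8) (a2 : a * a = 1) :
    a.1.cycleType = Multiset.replicate (Multiset.card a.1.cycleType) 2 ∧
      2 * Multiset.card a.1.cycleType = a.1.support.card := by
  have h : a.1 ^ 2 = 1 := by rw [pow_two]; exact congrArg Subtype.val a2
  have e := Multiset.eq_replicate_card.2 (Perm.pow_prime_eq_one_iff.1 h)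
  refine ⟨e, ?_⟩
  rw [← Perm.sum_cycleType]
  conv_rhs => rw [e]
  rw [Multiset.sum_replicate, smul_eq_mul, mul_comm]

theorem conj_of (a b : A8) (a2 : a * a = 1) (b2 : b * b = 1)
    (h : a.1.support.card = b.1.support.card) (o : Perm (Fin 8)) (ho : Perm.sign o = -1)
    (c : o * b.1 * o⁻¹ = b.1) : IsConj a b := by
  obtain ⟨e1, f1⟩ := ct a a2
  obtain ⟨e2, f2⟩ := ct b b2
  have : Multiset.card b.1.cycleType = Multiset.card a.1.cycleType := by omega
  obtain ⟨g, hg⟩ := isConj_iff.1 (Perm.isConj_of_cycleType_eq (σ := b.1) (τ := a.1)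
    (by rw [e1, e2, this]))
  refine IsConj.symm ?_
  rcases Int.units_eq_one_or (Perm.sign g) with s | s
  · exact isConj_iff.2 ⟨⟨g, s⟩, Subtype.ext hg⟩
  · refine isConj_iff.2 ⟨⟨g * o, ?_⟩, Subtype.ext ?_⟩
    · rw [Perm.mem_alternatingGroup, map_mul, s, ho]; decide
    · show g * o * b.1 * (g * o)⁻¹ = a.1
      rw [← hg]
      conv_rhs => rw [← c]
      group

theorem cs8 (a : A8) (a2 : a * a = 1) (h : a.1.support.card = 8) : IsConj a s8 :=
  conj_of a s8 a2 (by decide) (h.trans (by decide)) (swap 0 3) (by decide) (by decide)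

theorem ca8 (a : A8) (a2 : a * a = 1) (a1 : a ≠ 1) (ha : ¬ IsConj a s8) : IsConj a a8 := by
  obtain ⟨e1, f1⟩ := ct a a2
  have n0 : Multiset.card a.1.cycleType ≠ 0 := fun h =>
    a1 (Subtype.ext (Perm.card_cycleType_eq_zero.1 h))
  have le : a.1.support.card ≤ 8 := Finset.card_le_univ _
  have s := Perm.sign_of_cycleType a.1
  rw [Perm.mem_alternatingGroup.1 a.2, Perm.sum_cycleType, ← f1] at s
  have n8 : a.1.support.card ≠ 8 := fun h => ha (cs8 a a2 h)
  have n2 : Multiset.card a.1.cycleType = 2 := by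
    generalize Multiset.card a.1.cycleType = n at *
    have : n ≤ 3 := by omega
    interval_cases n <;> first | rfl | exact absurd rfl n0 | exact absurd s (by decide)
  exact conj_of a a8 a2 (by decide) (by rw [← f1, n2]; decide) (swap 0 1) (by decide) (by decide)

def b0 : A8 := ev (swap 3 4 * swap 0 1)

def HL : List A8 := [1, ev (swap 0 1 * swap 0 2), ev (swap 0 1 * swap 0 6), ev (swap 0 1 * swap 1 2),
  ev (swap 0 1 * swap 1 6), ev (swap 0 1 * swap 3 4), ev (swap 0 2 * swap 1 6),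
  ev (swap 3 5 * swap 4 7), ev (swap 0 1 * swap 0 2 * swap 3 5 * swap 4 7),
  ev (swap 0 1 * swap 0 6 * swap 3 5 * swap 4 7), ev (swap 0 1 * swap 1 2 * swap 3 5 * swap 4 7),
  ev (swap 0 1 * swap 1 6 * swap 3 5 * swap 4 7), ev (swap 0 2 * swap 1 6 * swap 3 5 * swap 4 7)]

set_option synthInstance.maxSize 4096 in
set_option synthInstance.maxHeartbeats 200000 in
theorem tup : ∀ i j : Fin 8, i ≠ j → ∀ k, i ≠ k → j ≠ k → ∀ l, i ≠ l → j ≠ l → k ≠ l →
    (∀ x, a8.1 (swap i j (swap k l x)) = swap i j (swap k l (a8.1 x))) →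
    (∃ x, a8.1 x ≠ swap i j (swap k l x)) → (∃ x, a8.1 (swap i j (swap k l x)) = x) →
    ∃ h ∈ HL, (∀ x, h.1 (a8.1 x) = a8.1 (h.1 x)) ∧
      ((∀ x, h.1 (b8.1 x) = swap i j (swap k l (h.1 x))) ∨
        ∀ x, h.1 (b0.1 x) = swap i j (swap k l (h.1 x))) := by
  decide +kernel

def CL : List A8 := [1, ev (swap 0 1 * swap 3 4), ev (swap 0 1 * swap 5 7), ev (swap 0 1 * swap 2 6),
  ev (swap 3 4 * swap 5 7), ev (swap 3 4 * swap 2 6), ev (swap 5 7 * swap 2 6),
  ev (swap 0 1 * swap 3 4 * swap 5 7 * swap 2 6)]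

set_option synthInstance.maxSize 4096 in
set_option synthInstance.maxHeartbeats 200000 in
theorem cen0 : ∀ x0, a8.1 x0 = x0 → b0.1 x0 ≠ x0 → ∀ x3, a8.1 x3 = b0.1 x3 → a8.1 x3 ≠ x3 →
    ∀ x5, b0.1 x5 = x5 → a8.1 x5 ≠ x5 → ∀ x2, a8.1 x2 = x2 → b0.1 x2 = x2 →
    ∀ x6, a8.1 x6 = x6 → b0.1 x6 = x6 → x2 ≠ x6 → ∃ h ∈ CL,
      (∀ i, h.1 i = ![x0, b0.1 x0, x2, x3, a8.1 x3, x5, x6, a8.1 x5] i) ∨
      (∀ i, swap 0 1 (h.1 i) = ![x0, b0.1 x0, x2, x3, a8.1 x3, x5, x6, a8.1 x5] i) := by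
  decide +kernel

theorem cen (g : A8) (ha : a8 * g = g * a8) (hb : b0 * g = g * b0) : g ∈ CL := by
  have a : ∀ x, a8.1 (g.1 x) = g.1 (a8.1 x) := fun x =>
    congrArg (fun p : A8 => p.1 x) ha
  have b : ∀ x, b0.1 (g.1 x) = g.1 (b0.1 x) := fun x =>
    congrArg (fun p : A8 => p.1 x) hb
  have n : ∀ {x y}, x ≠ y → g.1 x ≠ g.1 y := fun h => g.1.injective.ne h
  obtain ⟨h, hh, e⟩ := cen0 (g.1 0) (a 0) (by rw [b]; exact n (by decide))
    (g.1 3) ((a 3).trans (b 3).symm) (by rw [a]; exact n (by decide))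
    (g.1 5) (b 5) (by rw [a]; exact n (by decide)) (g.1 2) (a 2) (b 2) (g.1 6) (a 6) (b 6)
    (n (by decide))
  have v : ∀ i, ![g.1 0, b0.1 (g.1 0), g.1 2, g.1 3, a8.1 (g.1 3), g.1 5, g.1 6, a8.1 (g.1 5)] i
      = g.1 i := by
    intro i
    rw [a, a, b]
    fin_cases i <;> rfl
  rcases e with e | e
  · rwa [← (Subtype.ext (Equiv.ext fun i => (e i).trans (v i)) : h = g)]
  · have e2 : swap 0 1 * h.1 = g.1 := Equiv.ext fun i => (e i).trans (v i)
    have := congrArg Perm.sign e2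
    rw [map_mul, Perm.mem_alternatingGroup.1 h.2, Perm.mem_alternatingGroup.1 g.2] at this
    exact absurd this (by decide)

theorem pm0 (b : A8) (b2 : b * b = 1) (b1 : b ≠ 1) (ab : a8 ≠ b) (c : Commute a8 b)
    (hb : ¬ IsConj b s8) (hab : ¬ IsConj (a8 * b) s8) :
    ∃ h : A8, h * a8 * h⁻¹ = a8 ∧ (h * b8 * h⁻¹ = b ∨ h * b0 * h⁻¹ = b) := by
  obtain ⟨g, hg⟩ := isConj_iff.1 (ca8 b b2 b1 hb).symm
  have n : ∀ {x y}, x ≠ y → g.1 x ≠ g.1 y := fun h => g.1.injective.ne h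
  have e : ∀ x, swap (g.1 3) (g.1 4) (swap (g.1 5) (g.1 7) x) = b.1 x := by
    intro x
    have : swap (g.1 3) (g.1 4) * swap (g.1 5) (g.1 7) = b.1 := by
      rw [← hg, swap_apply_apply, swap_apply_apply]
      show _ = g.1 * (swap 3 4 * swap 5 7) * g.1⁻¹
      group
    rw [← this]; rfl
  have t := tup (g.1 3) (g.1 4) (n (by decide)) (g.1 5) (n (by decide)) (n (by decide)) (g.1 7)
    (n (by decide)) (n (by decide)) (n (by decide))
  simp only [e] at t
  obtain ⟨h, -, h1, h2⟩ := t (fun x => congrArg (fun p : A8 => p.1 x) c.eq)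
    (by
      by_contra h
      exact ab (Subtype.ext (Equiv.ext fun x => by_contra fun h' => h ⟨x, h'⟩)))
    (by
      by_contra h
      refine hab (cs8 _ ?_ ?_)
      · rw [← pow_two, c.mul_pow, pow_two, pow_two, b2, mul_one]; decide
      · have : (a8 * b).1.support = Finset.univ :=
          Finset.eq_univ_of_forall fun x => Perm.mem_support.2 fun h' => h ⟨x, h'⟩
        rw [this]; rfl)
  refine ⟨h, mul_inv_eq_iff_eq_mul.2 (Subtype.ext (Equiv.ext h1)), h2.imp ?_ ?_⟩ <;>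
    exact fun h2 => mul_inv_eq_iff_eq_mul.2 (Subtype.ext (Equiv.ext h2))

theorem pm (a b : A8) (a2 : a * a = 1) (b2 : b * b = 1) (a1 : a ≠ 1) (b1 : b ≠ 1) (ab : a ≠ b)
    (c : Commute a b) (ha : ¬ IsConj a s8) (hb : ¬ IsConj b s8) (hab : ¬ IsConj (a * b) s8) :
    (∃ g : A8, g * a8 * g⁻¹ = a ∧ g * b8 * g⁻¹ = b) ∨
      Nat.card (centralizer ({a, b} : Set A8)) ≤ 8 := by
  obtain ⟨g, rfl⟩ := isConj_iff.1 (ca8 a a2 a1 ha).symm
  obtain ⟨b, rfl⟩ : ∃ b', b = g * b' * g⁻¹ := ⟨g⁻¹ * b * g, by group⟩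
  have cj : ∀ x : A8, IsConj (g * x * g⁻¹) x := fun x => (isConj_iff.2 ⟨g, rfl⟩).symm
  obtain ⟨h, h1, h2⟩ := pm0 b (by simpa using b2) (by simpa using b1) (fun h => ab (h ▸ rfl))
    ((Commute.conj_iff g).1 c) (fun h => hb ((cj b).trans h))
    (fun h => hab (by rw [conj_mul]; exact (cj _).trans h))
  rcases h2 with rfl | rfl
  · refine Or.inl ⟨g * h, ?_, by group⟩
    conv_rhs => rw [← h1]
    group
  · right
    have e1 : g * a8 * g⁻¹ = g * h * a8 * (g * h)⁻¹ := by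
      conv_lhs => rw [← h1]
      group
    have e2 : g * (h * b0 * h⁻¹) * g⁻¹ = g * h * b0 * (g * h)⁻¹ := by group
    rw [e1, e2]
    generalize g * h = k
    classical
    have : Nat.card (centralizer ({k * a8 * k⁻¹, k * b0 * k⁻¹} : Set A8)) ≤ Nat.card CL.toFinset := by
      refine Nat.card_le_card_of_injective (fun x => ⟨k⁻¹ * x.1 * k, List.mem_toFinset.2
        (cen _ ?_ ?_)⟩) fun x y e => Subtype.ext (by simpa using e)
      · have := x.2 _ (Set.mem_insert _ _)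
        calc _ = k⁻¹ * (k * a8 * k⁻¹ * x.1) * k := by group
          _ = _ := by rw [this]; group
      · have := x.2 _ (Set.mem_insert_of_mem _ rfl)
        calc _ = k⁻¹ * (k * b0 * k⁻¹ * x.1) * k := by group
          _ = _ := by rw [this]; group
    rw [Nat.card_eq_finsetCard] at this
    exact this.trans (List.toFinset_card_le CL)

end H27.Pm
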